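import Mathlib
import Cfsg.Agent.S2904

/-! Definitions for S3430 / S4423 (large Zsigmondy primes, size of the primitive part). -/

set_option autoImplicit false

namespace Cfsg.Agent.Lib.Helper24.LZ

/-- `q ^ n - 1` has a primitive divisor (coprime to all `q ^ i - 1`, `1 ≤ i < n`) of size `≥ B`. -/
def PP (q n B : ℕ) : Prop :=
  ∃ m : ℕ, m ∣ q ^ n - 1 ∧ (∀ i : ℕ, 1 ≤ i → i < n → Nat.Coprime m (q ^ i - 1)) ∧ B ≤ m

/-- remove from `m` its common part with `d` (with fuel). -/
def strip : ℕ → ℕ → ℕ → ℕ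
  | 0, m, _ => m
  | k + 1, m, d => if Nat.gcd m d = 1 then m else strip k (m / Nat.gcd m d) d

/-- the primitive part of `q ^ n - 1`, computed. -/
def primPart (q n : ℕ) : ℕ :=
  (List.range n).foldl (fun m i => if i = 0 then m else strip 40 m (q ^ i - 1)) (q ^ n - 1)

/-- boolean check of `PP` with the witness `m`. -/
def PPb (q n B m : ℕ) : Bool :=
  decide (m ∣ q ^ n - 1) && ((List.range n).all (fun i => i == 0 || Nat.gcd m (q ^ i - 1) == 1)
    && decide (B ≤ m))

/-- the thirteen exceptional pairs. -/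
def L13 : List (ℕ × ℕ) :=
  [(2, 6), (2, 4), (2, 10), (2, 12), (2, 18), (3, 4), (3, 6), (5, 6), (2, 3), (2, 8), (2, 20),
    (4, 3), (4, 6)]

theorem PP_of_PPb {q n B m : ℕ} (h : PPb q n B m = true) : PP q n B := by
  unfold PPb at h
  rw [Bool.and_eq_true, Bool.and_eq_true, decide_eq_true_eq, decide_eq_true_eq,
    List.all_eq_true] at h
  refine ⟨m, h.1, fun i hi hin => ?_, h.2.2⟩
  have := h.2.1 i (List.mem_range.2 hin)
  rw [Bool.or_eq_true, beq_iff_eq, beq_iff_eq] at this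
  rcases this with h0 | h0
  · omega
  · exact h0

theorem PP.mono {q n B B' : ℕ} (h : PP q n B) (hB : B' ≤ B) : PP q n B' := by
  obtain ⟨m, h1, h2, h3⟩ := h
  exact ⟨m, h1, h2, hB.trans h3⟩

end Cfsg.Agent.Lib.Helper24.LZ
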