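import Mathlib
import Cfsg.Agent.Lib.Helper24.LZ.Defs

/-! Tables for S3430 / S4423 (kernel computations). -/

set_option autoImplicit false

namespace Cfsg.Agent.Lib.Helper24.LZ

set_option maxRecDepth 100000 in
theorem tab2_aux : ∀ n < 151, 3 ≤ n → (2, n) ∈ L13 ∨ PPb 2 n (3 * n + 1) (primPart 2 n) = true := by
  decide +kernel

set_option maxRecDepth 100000 in
theorem tabq_aux0 : (List.range 14).all (fun q => (List.range 61).all (fun n =>
    decide (q < 3) || (decide (n < 3) || (decide ((q, n) ∈ L13) ||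
      PPb q n (3 * n + 1) (primPart q n))))) = true := by
  decide +kernel

theorem tabq_aux : ∀ q < 14, ∀ n < 61, 3 ≤ q → 3 ≤ n →
    (q, n) ∈ L13 ∨ PPb q n (3 * n + 1) (primPart q n) = true := by
  intro q hq n hn hq3 hn3
  have h := tabq_aux0
  rw [List.all_eq_true] at h
  have h1 := h q (List.mem_range.2 hq)
  rw [List.all_eq_true] at h1
  have h2 := h1 n (List.mem_range.2 hn)
  rw [Bool.or_eq_true, Bool.or_eq_true, Bool.or_eq_true, decide_eq_true_eq, decide_eq_true_eq,
    decide_eq_true_eq] at h2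
  rcases h2 with h2 | h2 | h2 | h2
  · omega
  · omega
  · exact Or.inl h2
  · exact Or.inr h2

/-- [TAB] -/
theorem tab2 (n : ℕ) (hn : 3 ≤ n) (hn' : n ≤ 150) (h : (2, n) ∉ L13) : PP 2 n (3 * n + 1) := by
  rcases tab2_aux n (by omega) hn with h1 | h1
  · exact absurd h1 h
  · exact PP_of_PPb h1

/-- [TAB] -/
theorem tabq (q n : ℕ) (hq : 3 ≤ q) (hq' : q ≤ 13) (hn : 3 ≤ n) (hn' : n ≤ 60)
    (h : (q, n) ∉ L13) : PP q n (3 * n + 1) := by
  rcases tabq_aux q (by omega) n (by omega) hq hn with h1 | h1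
  · exact absurd h1 h
  · exact PP_of_PPb h1

/-- [TAB] the primitive parts of the thirteen pairs. -/
theorem tab13 : ∀ x ∈ L13, 0 < primPart x.1 x.2 ∧ primPart x.1 x.2 ≤ 2 * x.2 + 1 := by
  decide +kernel

/-- [TAB] the five pairs which are exceptional for `3 n + 1` but not for `n + 2`. -/
theorem tab5 : ∀ x ∈ [(2, 3), (2, 8), (2, 20), (4, 3), (4, 6)],
    PPb x.1 x.2 (x.2 + 2) (primPart x.1 x.2) = true := by
  decide +kernel

end Cfsg.Agent.Lib.Helper24.LZ
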